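import Mathlib
import Cfsg.Prelude.Def_DegreeGraph
import Cfsg.Agent.Small.Sieve
import Cfsg.Agent.Char.B0Tools

/-!
Certificates for primes dividing character degrees of a simple group of given order.
-/

set_option autoImplicit false
set_option linter.style.haveILetI false
set_option linter.unusedSectionVars false

namespace Cfsg.Agent.DegG

open Subgroup Cfsg.Agent.Small Cfsg.Agent.Small.Sieve Cfsg.Agent.Char Cfsg.Agent.Char.SelfC
open Cfsg.Agent.Block

variable {G : Type*} [Group G] [Finite G] [IsSimpleGroup G] {p : ℕ} [hp : Fact p.Prime]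

/-- the principal block cannot contain all the irreducible characters -/
def fullKill (B n p k e c : ℕ) : Bool :=
  c == 1 && go (fun l s => !(s + (p - 1) / e * (1 + l.sum).natAbs ^ 2 == n)) n
    (cands p (k * e) c false B) (e - 1) [] 1

/-- all non-exceptional degrees are divisible by `r` -/
def allDvd (B p r k e c : ℕ) : Bool :=
  (cands p (k * e) c false B).all fun v => v.natAbs % r == 0

theorem data (hG : ¬ IsMulCommutative G) {B : ℕ} {bts : List (ℕ × ℕ)} {keep : ℕ → ℕ → ℕ → Bool}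
    (h : primeKill B (Nat.card G) p A0 bts keep = true) :
    ∃ (k e c : ℕ) (x : G) (D : B0Data p x), keep k e c = true ∧ orderOf x = p ∧ 1 < e ∧ D.e = e ∧
      irrOne G ∈ D.X ∧ Nat.card (centralizer ({x} : Set G)) = p * c ∧
      DegSol (Nat.card G) (Nat.card G) p (k * e) e c A0 (degs D) ∧
      ∀ v ∈ degs D, v ∈ cands p (k * e) c false B := by
  obtain ⟨P⟩ : Nonempty (Sylow p G) := inferInstance
  have h' := h
  simp only [primeKill, Bool.and_eq_true, Nat.ble_eq] at h'
  obtain ⟨⟨⟨⟨⟨-, h3⟩, -⟩, -⟩, hB⟩, -⟩ := h'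
  obtain ⟨k, e, c, h1, -, h2, -, -, he1, -, -, hP, -, hc, hn, he⟩ :=
    primeKill_sound hG (admits_A0 hG) h P
  obtain ⟨x, hx, hxP⟩ := exists_zpowers_eq_sylow P hP
  obtain ⟨M, hM⟩ := exists_isPModular hp.out
  obtain ⟨D, hD, h4⟩ := exists_b0Data_norm (commutator_eq_top hG) (by omega) P hxP.symm hx hM
  rw [← hxP] at hn
  rw [← hxP, centralizer_zpowers] at hc he
  have h5 := degSol_of_b0Data hG (by omega) P hxP.symm hx hM D hD h4 hc
    (fun h => h2 (h.mul_left _)) (admits_A0 hG)
  rw [D.index_C, hn, ← D.he, he, mul_comm] at h5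
  refine ⟨k, e, c, x, D, h1, hx, he1, D.he.symm.trans he, h4, hc, h5, fun v hv =>
    mem_cands (by omega) (h5.modX v hv) (h5.goodX v hv) (by simp) B ?_⟩
  have h6 := Multiset.single_le_sum (s := (degs D).map fun v => v.natAbs ^ 2)
    (fun _ _ => Nat.zero_le _) _ (Multiset.mem_map_of_mem _ hv)
  have h7 : v.natAbs * v.natAbs ≤ B * B := by
    have := h5.sq
    rw [← pow_two]
    omega
  exact Nat.mul_self_le_mul_self_iff.1 h7

theorem mem_of_allDvd (hG : ¬ IsMulCommutative G) {B r : ℕ} (hr : r.Prime) {bts : List (ℕ × ℕ)}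
    (h : primeKill B (Nat.card G) p A0 bts (allDvd B p r) = true) : r ∈ degreePrimes G := by
  obtain ⟨k, e, c, x, D, h1, -, h2, -, -, -, h3, h4⟩ := data hG h
  obtain ⟨v, hv⟩ := Multiset.card_pos_iff_exists_mem.1 (show 0 < (degs D).card by
    have := h3.card; omega)
  have h5 := List.all_eq_true.1 h1 v (h4 v hv)
  obtain ⟨χ, h6, -, rfl⟩ := mem_degs.1 hv
  rw [natAbs_sign_mul (D.sign χ h6), beq_iff_eq] at h5
  exact ⟨hr, _, ⟨χ, rfl⟩, Nat.dvd_of_mod_eq_zero h5⟩

theorem mem_of_fullKill (hG : ¬ IsMulCommutative G) {B : ℕ} {bts : List (ℕ × ℕ)}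
    (h : primeKill B (Nat.card G) p A0 bts (fullKill B (Nat.card G) p) = true) :
    p ∈ degreePrimes G := by
  classical
  obtain ⟨k, e, c, x, D, h1, hx, h2, he, h0, hc, h3, h4⟩ := data hG h
  rw [fullKill, Bool.and_eq_true, beq_iff_eq] at h1
  obtain ⟨rfl, h1⟩ := h1
  by_contra hn
  have hC := centralizer_eq_of_card hx (by rw [hc, mul_one])
  have hu : D.X ∪ D.Y = Finset.univ := Finset.eq_univ_of_forall fun χ => by
    by_contra h5
    rw [Finset.mem_union, not_or] at h5
    exact hn ⟨hp.out, _, ⟨χ, rfl⟩, D.dvd_of_not_mem hx hC h5.1 h5.2⟩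
  have ht : (p - 1) / e = D.Y.card := by rw [← he, ← D.cardY, Nat.mul_div_cancel _ D.e_pos]
  have hsa : (1 + (degs D).sum).natAbs = D.d := by
    rw [one_add_sum_degs D hx h0, natAbs_sign_mul D.signY]
  have h5 : 1 + ((degs D).map fun v => v.natAbs ^ 2).sum +
      (p - 1) / e * (1 + (degs D).sum).natAbs ^ 2 = Nat.card G := by
    have h6 := sum_deg_sq (G := G)
    rw [← hu] at h6
    rw [hsa, ht]
    refine Eq.trans ?_ (by exact_mod_cast h6)
    rw [Finset.sum_union D.disj, ← Finset.add_sum_erase _ _ h0,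
      charDegree_eq_of_eq (n := 1) (by simp [irrOne_apply]),
      Finset.sum_congr (s₁ := D.Y) (g := fun _ => D.d ^ 2) rfl fun θ hθ => by rw [D.deg_Y hθ],
      degs, Multiset.map_map]
    simp only [one_pow, Finset.sum_const, smul_eq_mul]
    congr 2
    refine Finset.sum_congr rfl fun χ hχ => ?_
    simp only [Function.comp]
    rw [natAbs_sign_mul (D.sign χ (Finset.mem_of_mem_erase hχ))]
  have h6 : 0 < (p - 1) / e * (1 + (degs D).sum).natAbs ^ 2 := by
    have := (good_iff.1 h3.goodY).1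
    rw [ht]
    exact Nat.mul_pos D.Y_nonempty.card_pos (by positivity)
  obtain ⟨l, hl, h7⟩ := go_sound _ _ _ _ (degs D) h1 (by have := h3.card; omega) h4 (by omega)
  have h8 : l.sum = (degs D).sum := by rw [← Multiset.sum_coe, hl]; simp
  rw [h8, h5] at h7
  simp at h7

theorem mem_2520 (h : Nat.card G = 2520) : 5 ∈ degreePrimes G ∧ 7 ∈ degreePrimes G := by
  have hG : ¬ IsMulCommutative G := not_comm_of_card (by rw [h]; norm_num)
  haveI : Fact (Nat.Prime 5) := ⟨by norm_num⟩
  haveI : Fact (Nat.Prime 7) := ⟨by norm_num⟩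
  exact ⟨mem_of_fullKill hG (B := 51) (bts := [(7, 1)]) (by rw [h]; decide +kernel),
    mem_of_fullKill hG (B := 51) (bts := [(5, 1)]) (by rw [h]; decide +kernel)⟩

theorem mem_5616 (h : Nat.card G = 5616) : 13 ∈ degreePrimes G ∧ 3 ∈ degreePrimes G := by
  have hG : ¬ IsMulCommutative G := not_comm_of_card (by rw [h]; norm_num)
  haveI : Fact (Nat.Prime 13) := ⟨by norm_num⟩
  exact ⟨mem_of_fullKill hG (B := 75) (bts := []) (by rw [h]; decide +kernel),
    mem_of_allDvd hG (p := 13) (B := 75) (bts := []) (by norm_num) (by rw [h]; decide +kernel)⟩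

end Cfsg.Agent.DegG
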